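import Mathlib

/-!
# A counting lemma (helper116, for S4879 row `E₈`, box of helper596)

`G` finite, `P`, `Q` subgroups, `C` stable under conjugation, `x` an `l`-element, `h` commuting with `x`,
`C_G(x) ∩ P ≤ Q` and `C_Q(x)` transitive on `Q / (P ∩ Q)`. Then `#(C ∩ h Q P) ≡ #(C ∩ h P Q)` modulo `l`
(`modEq`), and `|P ∩ Q| #(C ∩ h Q P) = Σ_{q ∈ Q} #(C ∩ h q P)`, `|P ∩ Q| #(C ∩ h P Q) = Σ_{q ∈ Q} #(C ∩ q h P)`
(`card_QP`, `card_PQ`).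
-/

set_option autoImplicit false

namespace Cfsg.Agent.H116.L8

variable {G : Type*} [Group G]

/-- the number of elements of `C` in the coset `y P` -/
noncomputable def cnt (C : Set G) (P : Subgroup G) (y : G) : ℕ := Nat.card {g : G // g ∈ C ∧ y⁻¹ * g ∈ P}

/-- the number of elements of `C` in `h Q P` -/
noncomputable def nQP (C : Set G) (P Q : Subgroup G) (h : G) : ℕ :=
  Nat.card {g : G // g ∈ C ∧ ∃ q ∈ Q, ∃ p ∈ P, g = h * q * p}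

/-- the number of elements of `C` in `h P Q` -/
noncomputable def nPQ (C : Set G) (P Q : Subgroup G) (h : G) : ℕ :=
  Nat.card {g : G // g ∈ C ∧ ∃ p ∈ P, ∃ q ∈ Q, g = h * p * q}

/-! ### the numbers `c (y)` -/

theorem cnt_mul_right (C : Set G) {P : Subgroup G} (y : G) {p : G} (hp : p ∈ P) : cnt C P (y * p) = cnt C P y := by
  unfold cnt
  refine Nat.card_congr (Equiv.subtypeEquivRight fun g => ?_)
  rw [mul_inv_rev, mul_assoc, Subgroup.mul_mem_cancel_left _ (inv_mem hp)]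

theorem cnt_conj {C : Set G} (hC : ∀ g ∈ C, ∀ a : G, a * g * a⁻¹ ∈ C) {P : Subgroup G} (y : G) (a : G) :
    Nat.card {g : G // g ∈ C ∧ ∃ p ∈ P, g = y * p * a} = cnt C P (a * y) := by
  unfold cnt
  have hC' : ∀ g a : G, a * g * a⁻¹ ∈ C ↔ g ∈ C := fun g a => ⟨fun h1 => by
    have h2 := hC _ h1 a⁻¹
    rwa [show a⁻¹ * (a * g * a⁻¹) * a⁻¹⁻¹ = g by group] at h2, fun h1 => hC g h1 a⟩
  refine Nat.card_congr ((MulAut.conj a).toEquiv.subtypeEquiv fun g => ?_)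
  show _ ↔ a * g * a⁻¹ ∈ C ∧ (a * y)⁻¹ * (a * g * a⁻¹) ∈ P
  rw [hC']
  refine and_congr_right fun _ => ⟨?_, fun h1 => ⟨(a * y)⁻¹ * (a * g * a⁻¹), h1, by group⟩⟩
  rintro ⟨p, hp, rfl⟩
  have h2 : (a * y)⁻¹ * (a * (y * p * a) * a⁻¹) = p := by group
  rw [h2]
  exact hp

theorem cnt_mul_left {C : Set G} (hC : ∀ g ∈ C, ∀ a : G, a * g * a⁻¹ ∈ C) {P : Subgroup G} (y : G) {p : G}
    (hp : p ∈ P) : cnt C P (p * y) = cnt C P y := by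
  rw [← cnt_conj hC y p]
  unfold cnt
  refine Nat.card_congr (Equiv.subtypeEquivRight fun g => and_congr_right fun _ => ⟨?_, fun h1 =>
    ⟨y⁻¹ * g * p⁻¹, mul_mem h1 (inv_mem hp), by group⟩⟩)
  rintro ⟨q, hq, rfl⟩
  have h2 : y⁻¹ * (y * q * p) = q * p := by group
  rw [h2]
  exact mul_mem hq hp

/-- `c` is a function on the double cosets of `P` -/
theorem cnt_mul {C : Set G} (hC : ∀ g ∈ C, ∀ a : G, a * g * a⁻¹ ∈ C) {P : Subgroup G} (y : G) {p p' : G}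
    (hp : p ∈ P) (hp' : p' ∈ P) : cnt C P (p * y * p') = cnt C P y := by
  rw [cnt_mul_right C _ hp', cnt_mul_left hC _ hp]

/-! ### the sums -/

section Sum

variable [Finite G] (C : Set G) (P Q : Subgroup G) (h : G)

/-- `|P ∩ Q| #(C ∩ h Q P) = Σ_{q ∈ Q} #(C ∩ h q P)` -/
theorem card_QP [Fintype Q] : Nat.card (P ⊓ Q : Subgroup G) * nQP C P Q h = ∑ q : Q, cnt C P (h * q) := by
  classical
  have h1 : ∑ q : Q, cnt C P (h * q) = Nat.card (Σ q : Q, {g : G // g ∈ C ∧ (h * q)⁻¹ * g ∈ P}) := by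
    rw [Nat.card_sigma]
    rfl
  rw [h1, mul_comm]
  unfold nQP
  have h2 : ∀ g : {g : G // g ∈ C ∧ ∃ q ∈ Q, ∃ p ∈ P, g = h * q * p}, ∃ q : Q, (h * q)⁻¹ * (g : G) ∈ P := by
    rintro ⟨g, -, q, hq, p, hp, rfl⟩
    exact ⟨⟨q, hq⟩, by
      show (h * q)⁻¹ * (h * q * p) ∈ P
      rw [inv_mul_cancel_left]
      exact hp⟩
  choose s hs using h2
  rw [← Nat.card_prod]
  refine Nat.card_congr
    { toFun := fun z => ⟨⟨(s z.1 : G) * (z.2 : G), mul_mem (s z.1).2 (Subgroup.mem_inf.1 z.2.2).2⟩,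
        ⟨(z.1 : G), z.1.2.1, ?_⟩⟩
      invFun := fun z => ⟨⟨(z.2 : G), z.2.2.1, z.1, z.1.2, (h * z.1)⁻¹ * (z.2 : G), z.2.2.2, by group⟩,
        ⟨(s ⟨(z.2 : G), z.2.2.1, z.1, z.1.2, (h * z.1)⁻¹ * (z.2 : G), z.2.2.2, by group⟩ : G)⁻¹ * (z.1 : G), ?_⟩⟩
      left_inv := ?_
      right_inv := ?_ }
  · have h3 := hs z.1
    have h4 : (h * ((s z.1 : G) * (z.2 : G)))⁻¹ * (z.1 : G) = (z.2 : G)⁻¹ * ((h * (s z.1 : G))⁻¹ * (z.1 : G)) := by group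
    show (h * ((s z.1 : G) * (z.2 : G)))⁻¹ * (z.1 : G) ∈ P
    rw [h4]
    exact mul_mem (inv_mem (Subgroup.mem_inf.1 z.2.2).1) h3
  · have h3 := hs ⟨(z.2 : G), z.2.2.1, z.1, z.1.2, (h * z.1)⁻¹ * (z.2 : G), z.2.2.2, by group⟩
    rw [Subgroup.mem_inf]
    refine ⟨?_, mul_mem (inv_mem (s _).2) z.1.2⟩
    set r := s ⟨(z.2 : G), z.2.2.1, z.1, z.1.2, (h * z.1)⁻¹ * (z.2 : G), z.2.2.2, by group⟩
    have h4 : (r : G)⁻¹ * (z.1 : G) = ((h * (r : G))⁻¹ * (z.2 : G)) * ((h * (z.1 : G))⁻¹ * (z.2 : G))⁻¹ := by group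
    rw [h4]
    exact mul_mem h3 (inv_mem z.2.2.2)
  · rintro ⟨⟨g, hg⟩, ⟨r, hr⟩⟩
    refine Prod.ext rfl (Subtype.ext ?_)
    show _⁻¹ * (_ * r) = r
    rw [inv_mul_cancel_left]
  · rintro ⟨⟨q, hq⟩, ⟨g, hg⟩⟩
    refine Sigma.ext (Subtype.ext ?_) ?_
    · show _ * (_⁻¹ * q) = q
      rw [mul_inv_cancel_left]
    · refine (Subtype.heq_iff_coe_eq fun g' => ?_).2 rfl
      show (g' ∈ C ∧ (h * (_ * (_⁻¹ * q)))⁻¹ * g' ∈ P) ↔ (g' ∈ C ∧ (h * q)⁻¹ * g' ∈ P)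
      rw [mul_inv_cancel_left]

/-- `|P ∩ Q| #(C ∩ h P Q) = Σ_{q ∈ Q} #(C ∩ q h P)` -/
theorem card_PQ {C : Set G} (hC : ∀ g ∈ C, ∀ a : G, a * g * a⁻¹ ∈ C) [Fintype Q] :
    Nat.card (P ⊓ Q : Subgroup G) * nPQ C P Q h = ∑ q : Q, cnt C P (q * h) := by
  classical
  have h0 : ∀ q : Q, cnt C P (q * h) = Nat.card {g : G // g ∈ C ∧ h⁻¹ * g * (q : G)⁻¹ ∈ P} := by
    intro q
    rw [← cnt_conj hC h (q : G)]
    refine Nat.card_congr (Equiv.subtypeEquivRight fun g => and_congr_right fun _ => ⟨?_, fun h1 =>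
      ⟨h⁻¹ * g * (q : G)⁻¹, h1, by group⟩⟩)
    rintro ⟨p, hp, rfl⟩
    have h2 : h⁻¹ * (h * p * (q : G)) * (q : G)⁻¹ = p := by group
    rw [h2]
    exact hp
  have h1 : ∑ q : Q, cnt C P (q * h) = Nat.card (Σ q : Q, {g : G // g ∈ C ∧ h⁻¹ * g * (q : G)⁻¹ ∈ P}) := by
    rw [Nat.card_sigma]
    exact Finset.sum_congr rfl fun q _ => h0 q
  rw [h1, mul_comm]
  unfold nPQ
  have h2 : ∀ g : {g : G // g ∈ C ∧ ∃ p ∈ P, ∃ q ∈ Q, g = h * p * q}, ∃ q : Q, h⁻¹ * (g : G) * (q : G)⁻¹ ∈ P := by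
    rintro ⟨g, -, p, hp, q, hq, rfl⟩
    exact ⟨⟨q, hq⟩, by
      show h⁻¹ * (h * p * q) * q⁻¹ ∈ P
      rw [show h⁻¹ * (h * p * q) * q⁻¹ = p by group]
      exact hp⟩
  choose s hs using h2
  rw [← Nat.card_prod]
  refine Nat.card_congr
    { toFun := fun z => ⟨⟨(z.2 : G) * (s z.1 : G), mul_mem (Subgroup.mem_inf.1 z.2.2).2 (s z.1).2⟩,
        ⟨(z.1 : G), z.1.2.1, ?_⟩⟩
      invFun := fun z => ⟨⟨(z.2 : G), z.2.2.1, h⁻¹ * (z.2 : G) * (z.1 : G)⁻¹, z.2.2.2, z.1, z.1.2, by group⟩,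
        ⟨(z.1 : G) * (s ⟨(z.2 : G), z.2.2.1, h⁻¹ * (z.2 : G) * (z.1 : G)⁻¹, z.2.2.2, z.1, z.1.2, by group⟩ : G)⁻¹, ?_⟩⟩
      left_inv := ?_
      right_inv := ?_ }
  · have h3 := hs z.1
    have h4 : h⁻¹ * (z.1 : G) * ((z.2 : G) * (s z.1 : G))⁻¹ = (h⁻¹ * (z.1 : G) * (s z.1 : G)⁻¹) * (z.2 : G)⁻¹ := by group
    show h⁻¹ * (z.1 : G) * ((z.2 : G) * (s z.1 : G))⁻¹ ∈ P
    rw [h4]
    exact mul_mem h3 (inv_mem (Subgroup.mem_inf.1 z.2.2).1)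
  · have h3 := hs ⟨(z.2 : G), z.2.2.1, h⁻¹ * (z.2 : G) * (z.1 : G)⁻¹, z.2.2.2, z.1, z.1.2, by group⟩
    rw [Subgroup.mem_inf]
    refine ⟨?_, mul_mem z.1.2 (inv_mem (s _).2)⟩
    set r := s ⟨(z.2 : G), z.2.2.1, h⁻¹ * (z.2 : G) * (z.1 : G)⁻¹, z.2.2.2, z.1, z.1.2, by group⟩
    have h4 : (z.1 : G) * (r : G)⁻¹ = (h⁻¹ * (z.2 : G) * (z.1 : G)⁻¹)⁻¹ * (h⁻¹ * (z.2 : G) * (r : G)⁻¹) := by group
    rw [h4]
    exact mul_mem (inv_mem z.2.2.2) h3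
  · rintro ⟨⟨g, hg⟩, ⟨r, hr⟩⟩
    refine Prod.ext rfl (Subtype.ext ?_)
    show r * _ * _⁻¹ = r
    rw [mul_inv_cancel_right]
  · rintro ⟨⟨q, hq⟩, ⟨g, hg⟩⟩
    refine Sigma.ext (Subtype.ext ?_) ?_
    · show q * _⁻¹ * _ = q
      rw [inv_mul_cancel_right]
    · refine (Subtype.heq_iff_coe_eq fun g' => ?_).2 rfl
      show (g' ∈ C ∧ h⁻¹ * g' * (q * _⁻¹ * _)⁻¹ ∈ P) ↔ (g' ∈ C ∧ h⁻¹ * g' * q⁻¹ ∈ P)
      rw [inv_mul_cancel_right]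

end Sum

/-! ### the congruence -/

/-- an `l`-element acting by conjugation on a stable set -/
theorem card_fix [Finite G] {l : ℕ} [Fact l.Prime] {x : G} (hx : ∃ k, orderOf x = l ^ k) {S : Set G}
    (hS : ∀ g ∈ S, x * g * x⁻¹ ∈ S) :
    Nat.card S ≡ Nat.card {g : G // g ∈ S ∧ Commute g x} [MOD l] := by
  have h1 : ∀ n : ℕ, ∀ g ∈ S, x ^ n * g * (x ^ n)⁻¹ ∈ S := by
    intro n
    induction n with
    | zero => intro g hg; simpa using hg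
    | succ n ih =>
      intro g hg
      have h2 := hS _ (ih g hg)
      rwa [show x * (x ^ n * g * (x ^ n)⁻¹) * x⁻¹ = x ^ (n + 1) * g * (x ^ (n + 1))⁻¹ by
        rw [pow_succ']; group] at h2
  have h2 : ∀ a ∈ Subgroup.zpowers x, ∀ g ∈ S, a * g * a⁻¹ ∈ S := by
    intro a ha g hg
    obtain ⟨n, rfl⟩ := mem_powers_iff_mem_zpowers.2 ha
    exact h1 n g hg
  letI : MulAction (Subgroup.zpowers x) S :=
    { smul := fun a s => ⟨(a : G) * (s : G) * (a : G)⁻¹, h2 a a.2 s s.2⟩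
      one_smul := fun s => Subtype.ext (by
        show ((1 : Subgroup.zpowers x) : G) * (s : G) * ((1 : Subgroup.zpowers x) : G)⁻¹ = s
        rw [Subgroup.coe_one]; group)
      mul_smul := fun a b s => Subtype.ext (by
        show ((a * b : Subgroup.zpowers x) : G) * (s : G) * ((a * b : Subgroup.zpowers x) : G)⁻¹ =
          (a : G) * ((b : G) * (s : G) * (b : G)⁻¹) * (a : G)⁻¹
        rw [Subgroup.coe_mul]; group) }
  have hp : IsPGroup l (Subgroup.zpowers x) := by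
    obtain ⟨k, hk⟩ := hx
    exact IsPGroup.of_card (n := k) (by rw [Nat.card_zpowers, hk])
  refine (hp.card_modEq_card_fixedPoints S).trans (congrArg (· % l) ?_)
  have h3 : ∀ s : S, s ∈ MulAction.fixedPoints (Subgroup.zpowers x) S ↔ Commute (s : G) x := by
    intro s
    constructor
    · intro h4
      have h5 := congrArg Subtype.val (h4 ⟨x, Subgroup.mem_zpowers x⟩)
      change x * (s : G) * x⁻¹ = s at h5
      exact (mul_inv_eq_iff_eq_mul.1 h5).symm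
    · rintro h4 ⟨a, ha⟩
      refine Subtype.ext ?_
      show a * (s : G) * a⁻¹ = s
      obtain ⟨n, rfl⟩ := ha
      rw [mul_inv_eq_iff_eq_mul]
      exact (h4.zpow_right n).eq.symm
  exact Nat.card_congr
    { toFun := fun s => ⟨((s : S) : G), (s : S).2, (h3 s).1 s.2⟩
      invFun := fun s => ⟨⟨(s : G), s.2.1⟩, (h3 _).2 s.2.2⟩
      left_inv := fun s => rfl
      right_inv := fun s => rfl }

/-- `#(C ∩ h Q P) ≡ #(C ∩ h P Q)` modulo `l` -/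
theorem modEq [Finite G] {l : ℕ} [Fact l.Prime] {C : Set G} (hC : ∀ g ∈ C, ∀ a : G, a * g * a⁻¹ ∈ C)
    {P Q : Subgroup G} {x h : G} (hx : ∃ k, orderOf x = l ^ k) (hxP : x ∈ P) (hxQ : x ∈ Q) (hxh : Commute h x)
    (hkey : ∀ g ∈ P, Commute g x → g ∈ Q)
    (htr : ∀ g ∈ Q, ∃ y ∈ Q, Commute y x ∧ y⁻¹ * g ∈ P ⊓ Q) :
    nQP C P Q h ≡ nPQ C P Q h [MOD l] := by
  have hA : ∀ g ∈ {g : G | g ∈ C ∧ ∃ q ∈ Q, ∃ p ∈ P, g = h * q * p}, x * g * x⁻¹ ∈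
      {g : G | g ∈ C ∧ ∃ q ∈ Q, ∃ p ∈ P, g = h * q * p} := by
    rintro g ⟨hg, q, hq, p, hp, e⟩
    refine ⟨hC g hg x, x * q * x⁻¹, mul_mem (mul_mem hxQ hq) (inv_mem hxQ), x * p * x⁻¹,
      mul_mem (mul_mem hxP hp) (inv_mem hxP), ?_⟩
    have h1 : x * h = h * x := hxh.eq.symm
    rw [e]
    calc x * (h * q * p) * x⁻¹ = (x * h) * q * p * x⁻¹ := by group
      _ = (h * x) * q * p * x⁻¹ := by rw [h1]
      _ = _ := by group
  have hB : ∀ g ∈ {g : G | g ∈ C ∧ ∃ p ∈ P, ∃ q ∈ Q, g = h * p * q}, x * g * x⁻¹ ∈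
      {g : G | g ∈ C ∧ ∃ p ∈ P, ∃ q ∈ Q, g = h * p * q} := by
    rintro g ⟨hg, p, hp, q, hq, e⟩
    refine ⟨hC g hg x, x * p * x⁻¹, mul_mem (mul_mem hxP hp) (inv_mem hxP), x * q * x⁻¹,
      mul_mem (mul_mem hxQ hq) (inv_mem hxQ), ?_⟩
    have h1 : x * h = h * x := hxh.eq.symm
    rw [e]
    calc x * (h * p * q) * x⁻¹ = (x * h) * p * q * x⁻¹ := by group
      _ = (h * x) * p * q * x⁻¹ := by rw [h1]
      _ = _ := by group
  -- the elements of `Q P` commuting with `x`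
  have hQP : ∀ g : G, Commute g x → ∀ q ∈ Q, ∀ p ∈ P, g = q * p → g ∈ Q := by
    rintro g hg q hq p hp rfl
    obtain ⟨y, hy, hyx, hyq⟩ := htr q hq
    have h1 : y⁻¹ * (q * p) ∈ P := by
      rw [← mul_assoc]
      exact mul_mem (Subgroup.mem_inf.1 hyq).1 hp
    have h2 : y⁻¹ * (q * p) ∈ Q := hkey _ h1 ((hyx.inv_left).mul_left hg)
    have h3 := mul_mem hy h2
    rwa [mul_inv_cancel_left] at h3
  have hPQ : ∀ g : G, Commute g x → ∀ p ∈ P, ∀ q ∈ Q, g = p * q → g ∈ Q := by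
    rintro g hg p hp q hq rfl
    have h1 := hQP (p * q)⁻¹ hg.inv_left q⁻¹ (inv_mem hq) p⁻¹ (inv_mem hp) (mul_inv_rev p q)
    exact inv_mem_iff.1 h1
  have h1 := card_fix hx hA
  have h2 := card_fix hx hB
  have h3 : Nat.card {g : G // g ∈ {g : G | g ∈ C ∧ ∃ q ∈ Q, ∃ p ∈ P, g = h * q * p} ∧ Commute g x} =
      Nat.card {g : G // g ∈ {g : G | g ∈ C ∧ ∃ p ∈ P, ∃ q ∈ Q, g = h * p * q} ∧ Commute g x} := by
    refine Nat.card_congr (Equiv.subtypeEquivRight fun g => ?_)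
    rw [Set.mem_setOf_eq, Set.mem_setOf_eq]
    refine and_congr_left fun hg => and_congr_right fun _ => ?_
    have hg' : Commute (h⁻¹ * g) x := (hxh.inv_left).mul_left hg
    constructor
    · rintro ⟨q, hq, p, hp, e⟩
      exact ⟨1, one_mem _, h⁻¹ * g, hQP _ hg' q hq p hp (by rw [e]; group), by group⟩
    · rintro ⟨p, hp, q, hq, e⟩
      exact ⟨h⁻¹ * g, hPQ _ hg' p hp q hq (by rw [e]; group), 1, one_mem _, by group⟩
  exact (h1.trans (congrArg (· % l) h3)).trans h2.symm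

/-- the congruence between the two sums, divided by `|P ∩ Q|` -/
theorem modEq_sum [Finite G] {l : ℕ} [Fact l.Prime] {C : Set G} (hC : ∀ g ∈ C, ∀ a : G, a * g * a⁻¹ ∈ C)
    {P Q : Subgroup G} [Fintype Q] {x h : G} (hx : ∃ k, orderOf x = l ^ k) (hxP : x ∈ P) (hxQ : x ∈ Q)
    (hxh : Commute h x) (hkey : ∀ g ∈ P, Commute g x → g ∈ Q)
    (htr : ∀ g ∈ Q, ∃ y ∈ Q, Commute y x ∧ y⁻¹ * g ∈ P ⊓ Q) {a b : ℕ}
    (ha : ∑ q : Q, cnt C P (h * q) = Nat.card (P ⊓ Q : Subgroup G) * a)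
    (hb : ∑ q : Q, cnt C P (q * h) = Nat.card (P ⊓ Q : Subgroup G) * b) : a ≡ b [MOD l] := by
  have h0 : 0 < Nat.card (P ⊓ Q : Subgroup G) := Nat.card_pos
  have h1 := modEq hC hx hxP hxQ hxh hkey htr
  rw [← card_QP C P Q h] at ha
  rw [← card_PQ P Q h hC] at hb
  rwa [Nat.eq_of_mul_eq_mul_left h0 ha, Nat.eq_of_mul_eq_mul_left h0 hb] at h1

end Cfsg.Agent.H116.L8
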