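import Cfsg.Agent.H116.L8.Tr
import Cfsg.Agent.ChevalleyStructure.ConjSimpleAll

/-!
# Degrees of the entries of the elements of `E₈ (q)` (helper116, for S4879 row `E₈`, box of helper596)

* `x_shift` : the entries of `x_r(t)` shift the degree by a non-negative multiple of `r`;
* `diag_eq` : the elements of the torus are diagonal; `nn_entry` : the entries of `n_i`;
* `k1a : K1a K`, `k1b : K1b K`.
-/

set_option autoImplicit false
set_option linter.unusedSectionVars false
set_option maxHeartbeats 400000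

namespace Cfsg.Agent.H116.L8

open Cfsg CoxeterSystem Cfsg.Agent.ChevalleyStructure.CoxeterGeom Cfsg.Agent.Tits.Roots Cfsg.Agent.Tits.Core
  Cfsg.Agent.Tits.RootComb Cfsg.Agent.Nodes.Reps Cfsg.Agent.Nodes.BNOf
  Cfsg.Agent.Nodes.StabComb Cfsg.Agent.Nodes.Bruhat Cfsg.Agent.Nodes.LeviDec Cfsg.Agent.H35.Poin
  Cfsg.Agent.H35.PoinNum Cfsg.Agent.H35.ExcIdx
  Cfsg.Agent.ChevalleyStructure.CoxeterGeomTypes Cfsg.Lie
open Cfsg.Agent.Nodes.RGDChev Cfsg.Agent.ChevalleyStructure Cfsg.Agent.ChevalleyStructure.NPerm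
  Cfsg.Agent.ChevalleyStructure.Elts Cfsg.Agent.ChevalleyStructure.XColumns
open Cfsg.Agent.H596.L8
open scoped Matrix

universe u

variable {K : Type u} [Field K]

theorem ck : RootVecTab.Checked chevE8 := hpE8.checked

theorem nodup_row (r : ℕ) : ((RootVec.row chevE8 r).map Prod.fst).Nodup :=
  (RootVec.row_pairwise ck r).imp fun h => h.ne

theorem dg_inl (i : Fin chevE8.rank) : dg (Sum.inl i) = 0 := rfl

theorem dg_inr (r : Fin chevE8.nroots) : dg (Sum.inr r) = vec chevE8 8 r := rfl

/-- the entries of `x_r(t)` -/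
theorem x_shift {r : ℕ} (hr : r < chevE8.nroots) (t : K) {a b : chevE8.Idx} (h : chevE8.x K r t a b ≠ 0) :
    ∃ n : ℕ, ∀ k, dg a k = dg b k + n * vec chevE8 8 r k := by
  have hne : chevE8.neg r ≠ r := RootVec.neg_ne ck hr
  have hnl : chevE8.neg r < chevE8.nroots := RootVec.neg_lt ck hr
  rcases b with j | s
  · have h1 : chevE8.x K r t a (Sum.inl j) = (chevE8.x K r t *ᵥ hv chevE8 K j) a := (mulVec_hv _ j.2 a).symm
    rw [h1, x_mulVec_hv hr j.2] at h
    rcases a with i | v
    · exact ⟨0, fun k => by simp [dg_inl]⟩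
    · refine ⟨1, fun k => ?_⟩
      have h2 : (v : ℕ) = r := by
        by_contra h2
        apply h
        simp [h2]
      rw [dg_inr, dg_inl, h2]
      simp
  · have h1 : chevE8.x K r t a (Sum.inr s) = (chevE8.x K r t *ᵥ ev chevE8 K s) a := (mulVec_ev _ s.2 a).symm
    rw [h1] at h
    by_cases hs1 : (s : ℕ) = r
    · rw [hs1, x_mulVec_ev_self hr] at h
      rcases a with i | v
      · exact absurd rfl h
      · refine ⟨0, fun k => ?_⟩
        have h2 : (v : ℕ) = r := by
          by_contra h2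
          exact h (by simp [h2])
        rw [dg_inr, dg_inr, h2, hs1]
        simp
    · by_cases hs2 : (s : ℕ) = chevE8.neg r
      · rw [hs2, x_mulVec_ev_neg hr hnl hne] at h
        have h3 : ∀ k, vec chevE8 8 s k = -vec chevE8 8 r k := fun k => by
          rw [hs2, vec_neg hpE8 hr]
          rfl
        rcases a with i | v
        · exact ⟨1, fun k => by rw [dg_inl, dg_inr, h3]; simp⟩
        · by_cases hv1 : (v : ℕ) = chevE8.neg r
          · exact ⟨0, fun k => by rw [dg_inr, dg_inr, hv1, hs2]; simp⟩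
          · have hv2 : (v : ℕ) = r := by
              by_contra h2
              exact h (by simp [hv1, h2])
            refine ⟨2, fun k => ?_⟩
            rw [dg_inr, dg_inr, h3, hv2]
            push_cast
            ring
      · rw [x_mulVec_ev hr s.2 hs1 hs2 (nodup_row r)] at h
        rcases a with i | v
        · exfalso
          apply h
          have : ∀ l : List ((ℕ × ℤ) × ℕ), ((l.map fun q => ((q.1.2 : K) * t ^ (q.2 + 1)) • ev chevE8 K q.1.1).sum)
              (Sum.inl i) = 0 := by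
            intro l
            induction l with
            | nil => rfl
            | cons q l ih => rw [List.map_cons, List.sum_cons, Pi.add_apply, ih]; simp
          rw [Pi.add_apply, this]
          simp
        · by_cases hv1 : (v : ℕ) = s
          · exact ⟨0, fun k => by rw [dg_inr, dg_inr, hv1]; simp⟩
          · have hex : ∀ l : List ((ℕ × ℤ) × ℕ),
                ((l.map fun q => ((q.1.2 : K) * t ^ (q.2 + 1)) • ev chevE8 K q.1.1).sum) (Sum.inr v) ≠ 0 →
                ∃ q ∈ l, q.1.1 = (v : ℕ) := by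
              intro l
              induction l with
              | nil => intro h4; exact absurd rfl h4
              | cons q l ih =>
                intro h4
                rw [List.map_cons, List.sum_cons, Pi.add_apply] at h4
                by_cases h5 : q.1.1 = (v : ℕ)
                · exact ⟨q, List.mem_cons_self, h5⟩
                · have h6 : (((q.1.2 : K) * t ^ (q.2 + 1)) • ev chevE8 K q.1.1) (Sum.inr v) = 0 := by
                    rw [Pi.smul_apply, ev_inr, if_neg (fun e => h5 e.symm), smul_zero]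
                  rw [h6, zero_add] at h4
                  obtain ⟨q', hq', e⟩ := ih h4
                  exact ⟨q', List.mem_cons_of_mem _ hq', e⟩
            rw [Pi.add_apply, ev_inr, if_neg hv1, zero_add] at h
            obtain ⟨q, hq, e⟩ := hex _ h
            rw [List.mem_zipIdx_iff_getElem?] at hq
            obtain ⟨-, -, -, h7⟩ := RootVec.chainEntry_get ck hq
            refine ⟨q.2 + 1, fun k => ?_⟩
            rw [dg_inr, dg_inr, ← e]
            exact h7 k

/-- the elements of a root group -/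
theorem XX_shift {x : Fin 8 → ℤ} (hx : IsRoot CoxeterMatrix.E₈.toCoxeterSystem hpE8.isCartan x) {g : chevE8.group K}
    (hg : g ∈ XX chevE8 8 K x) {a b : chevE8.Idx} (h : mt g a b ≠ 0) : ∃ n : ℕ, ∀ k, dg a k = dg b k + n * x k := by
  obtain ⟨r, hr, rfl⟩ := (isRoot_iff hpE8 CoxeterMatrix.E₈.toCoxeterSystem x).1 hx
  rw [Subgroup.mem_subgroupOf, XV_vec hpE8 K hr, mem_rootSubgroup_iff hpE8.inList] at hg
  obtain ⟨t, ht⟩ := hg
  refine x_shift hr t ?_
  change ((g : GL chevE8.Idx K) : Matrix chevE8.Idx chevE8.Idx K) a b ≠ 0 at h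
  rwa [ht, coe_xG] at h

/-- the elements of the torus -/
theorem TT_diag {g : chevE8.group K} (hg : g ∈ TT chevE8 K) {a b : chevE8.Idx} (h : mt g a b ≠ 0) : a = b := by
  obtain ⟨χ, hχ⟩ := HMatDiagAll.mem_torus.1 (HMatDiagAll.diagonalSubgroup_le_torus hpE8.inList
    (Subgroup.mem_subgroupOf.1 hg))
  by_contra hab
  apply h
  show ((g : GL chevE8.Idx K) : Matrix chevE8.Idx chevE8.Idx K) a b = 0
  rw [hχ, Matrix.diagonal_apply_ne _ hab]

theorem mt_mul (g g' : chevE8.group K) : mt (g * g') = mt g * mt g' := rfl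

theorem mt_one : mt (1 : chevE8.group K) = 1 := rfl

theorem exists_of_mul {g g' : chevE8.group K} {a b : chevE8.Idx} (h : mt (g * g') a b ≠ 0) :
    ∃ c, mt g a c ≠ 0 ∧ mt g' c b ≠ 0 := by
  rw [mt_mul, Matrix.mul_apply] at h
  obtain ⟨c, -, hc⟩ := Finset.exists_ne_zero_of_sum_ne_zero h
  exact ⟨c, left_ne_zero_of_mul hc, right_ne_zero_of_mul hc⟩

/-- the elements which do not lower the `k`-th degree, with their inverses -/
def Up (K : Type u) [Field K] (k : Fin 8) : Subgroup (chevE8.group K) where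
  carrier := {g | (∀ a b, mt g a b ≠ 0 → dg b k ≤ dg a k) ∧ ∀ a b, mt g⁻¹ a b ≠ 0 → dg b k ≤ dg a k}
  one_mem' := by
    have h1 : ∀ a b : chevE8.Idx, mt (1 : chevE8.group K) a b ≠ 0 → dg b k ≤ dg a k := by
      intro a b h
      have h2 : a = b := by
        by_contra hab
        exact h (by rw [mt_one, Matrix.one_apply_ne hab])
      rw [h2]
    refine ⟨h1, ?_⟩
    rw [inv_one]
    exact h1
  mul_mem' := by
    rintro g g' ⟨hg, hgi⟩ ⟨hg', hgi'⟩
    refine ⟨fun a b h => ?_, fun a b h => ?_⟩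
    · obtain ⟨c, h1, h2⟩ := exists_of_mul h
      exact (hg' c b h2).trans (hg a c h1)
    · rw [mul_inv_rev] at h
      obtain ⟨c, h1, h2⟩ := exists_of_mul h
      exact (hgi c b h2).trans (hgi' a c h1)
  inv_mem' := by
    rintro g ⟨hg, hgi⟩
    exact ⟨hgi, by rw [inv_inv]; exact hg⟩

theorem le_Up {k : Fin 8} {H : Subgroup (chevE8.group K)} (hH : ∀ g ∈ H, ∀ a b, mt g a b ≠ 0 → dg b k ≤ dg a k) :
    H ≤ Up K k := fun g hg => ⟨hH g hg, hH g⁻¹ (inv_mem hg)⟩

theorem XX_le_Up {k : Fin 8} {x : Fin 8 → ℤ} (hx : IsRoot CoxeterMatrix.E₈.toCoxeterSystem hpE8.isCartan x)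
    (h0 : 0 ≤ x k) : XX chevE8 8 K x ≤ Up K k := by
  refine le_Up fun g hg a b h => ?_
  obtain ⟨n, hn⟩ := XX_shift hx hg h
  rw [hn k]
  have : 0 ≤ (n : ℤ) * x k := mul_nonneg (Int.natCast_nonneg n) h0
  omega

/-- **K1a** -/
theorem k1a (K : Type u) [Field K] : K1a K := by
  intro J k hk g hg a b h
  have h1 : P8 K J ≤ Up K k := by
    refine sup_le (sup_le (le_Up fun g hg a b h => by rw [TT_diag hg h]) (RGD.Sup_le fun x hx => ?_))
      (RGD.Sup_le fun x hx => ?_)
    · exact XX_le_Up hx.1 (le_of_eq (hx.2 k hk).symm)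
    · exact XX_le_Up hx.1 (hx.2.1 k)
  exact (h1 hg).1 a b h

/-- the entries of `n_i` -/
theorem nn_entry (i : Fin 8) {a b : chevE8.Idx} (h : mt (nE (K := K) i) a b ≠ 0) :
    dg a = rep CoxeterMatrix.E₈.toCoxeterSystem hpE8.isCartan (CoxeterMatrix.E₈.toCoxeterSystem.simple i) (dg b) := by
  have hF := NSimpleAll.facts hpE8.inList (lt_rank hpE8 i)
  have h0 : mt (nE (K := K) i) = chevE8.nMat K (chevE8.simple i) 1 := coe_nG hpE8.inList _ _
  rw [h0] at h
  rcases b with j | s
  · rw [NSimple.nMat_apply_inl K hF] at h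
    rcases a with i' | v
    · rw [dg_inl, dg_inl, map_zero]
    · exact absurd rfl h
  · rw [NSimple.nMat_apply_inr K hF] at h
    rcases a with i' | v
    · exact absurd rfl h
    · have h2 : (v : ℕ) = chevE8.reflectRoot i s := by
        by_contra h2
        apply h
        rw [Sum.elim_inr, if_neg h2]
      rw [dg_inr, dg_inr, h2, rep_vec hpE8 _ i s.2]

/-- **K1b** -/
theorem k1b (K : Type u) [Field K] : K1b K := by
  intro ns w
  obtain ⟨ω, rfl⟩ := CoxeterMatrix.E₈.toCoxeterSystem.wordProd_surjective w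
  induction ω with
  | nil =>
    intro g hg a b h
    rw [wordProd_nil] at hg
    rw [TT_diag hg.mem_of_one h, wordProd_nil, map_one]
    rfl
  | cons i ω ih =>
    intro g hg a b h
    rw [wordProd_cons] at hg
    have h1 : Rp CoxeterMatrix.E₈.toCoxeterSystem ns (CoxeterMatrix.E₈.toCoxeterSystem.wordProd ω) ((nE i)⁻¹ * g) := by
      have := (rp_simple CoxeterMatrix.E₈.toCoxeterSystem ns i).inv.mul hg
      rwa [inv_mul_cancel_left] at this
    have h2 : mt (nE i * ((nE i)⁻¹ * g)) a b ≠ 0 := by rwa [mul_inv_cancel_left]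
    obtain ⟨c, h3, h4⟩ := exists_of_mul h2
    rw [nn_entry i h3, ih _ h1 c b h4, wordProd_cons, rep_mul_apply]

end Cfsg.Agent.H116.L8
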