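import Cfsg.Agent.H116.L8.Tr

/-!
# K4 (helper116, for S4879 row `E₈`, box of helper596)

`u = w⁻¹ ∈ W(E₇)` with the coefficients of the roots of `u R` at the nodes `4, 5, 6` constant. Then `u` stabilizes the
roots over `{0, 1, 2, 3}`, hence those over `{5, 6}`, hence `u R ⊆ ± R` (240 roots); if `u R ⊆ R` then `u` fixes the
dominant vector `∑ R + 5 θ`, so that `u` is in the parabolic subgroup of `{i ≠ 4}`.
-/

set_option autoImplicit false
set_option linter.unusedSectionVars false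
set_option maxHeartbeats 400000

namespace Cfsg.Agent.H116.L8

open Cfsg CoxeterSystem Cfsg.Agent.ChevalleyStructure.CoxeterGeom Cfsg.Agent.Tits.Roots Cfsg.Agent.Tits.Core
  Cfsg.Agent.Tits.RootComb Cfsg.Agent.Nodes.Reps Cfsg.Agent.Nodes.BNOf Cfsg.Agent.Tits.Exchange
  Cfsg.Agent.Nodes.StabComb Cfsg.Agent.Nodes.Bruhat Cfsg.Agent.Nodes.LeviDec Cfsg.Agent.H35.Poin
  Cfsg.Agent.H35.PoinNum Cfsg.Agent.H35.ExcIdx
  Cfsg.Agent.ChevalleyStructure.CoxeterGeomTypes Cfsg.Lie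
open Cfsg.Agent.Nodes.RGDChev Cfsg.Agent.ChevalleyStructure.NPerm
open Cfsg.Agent.H596.L8

section Gen

variable {I W : Type*} [Fintype I] [DecidableEq I] [Group W] {M : CoxeterMatrix I}
  {cs : CoxeterSystem M W} {A : I → I → ℤ} {h : IsCartan M A}

theorem eq_sum_sr (x : I → ℤ) : x = ∑ k, x k • sr k := by
  funext b
  rw [Finset.sum_apply]
  simp only [Pi.smul_apply, smul_eq_mul, sr, Pi.single_apply]
  simp

theorem rep_coord (u : W) (x : I → ℤ) (m : I) : rep cs h u x m = ∑ k, x k * rep cs h u (sr k) m := by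
  conv_lhs => rw [eq_sum_sr x, map_sum]
  rw [Finset.sum_apply]
  refine Finset.sum_congr rfl fun k _ => ?_
  rw [map_smul]
  rfl

theorem stab_sub {J : Set I} {u : W} (hu : ∀ k ∈ J, rep cs h u (sr k) ∈ RootsJ cs h J) :
    ∀ x ∈ RootsJ cs h J, rep cs h u x ∈ RootsJ cs h J := by
  intro x hx
  refine ⟨hx.1.act u, fun m hm => ?_⟩
  rw [rep_coord]
  refine Finset.sum_eq_zero fun k _ => ?_
  by_cases hk : k ∈ J
  · rw [(hu k hk).2 m hm, mul_zero]
  · rw [hx.2 k hk, zero_mul]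

theorem finite_roots [Finite W] : {x : I → ℤ | IsRoot cs h x}.Finite := by
  refine (Set.finite_range fun p : W × I => rep cs h p.1 (sr p.2)).subset ?_
  rintro x ⟨w, i, rfl⟩
  exact ⟨(w, i), rfl⟩

theorem stab_inv [Finite W] {J : Set I} {u : W} (hu : ∀ x ∈ RootsJ cs h J, rep cs h u x ∈ RootsJ cs h J) :
    ∀ x ∈ RootsJ cs h J, rep cs h u⁻¹ x ∈ RootsJ cs h J := by
  have hfin : Finite {x : I → ℤ // x ∈ RootsJ cs h J} :=
    ((finite_roots (cs := cs) (h := h)).subset fun x hx => hx.1).to_subtype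
  have hinj : Function.Injective fun x : {x : I → ℤ // x ∈ RootsJ cs h J} =>
      (⟨rep cs h u x.1, hu x.1 x.2⟩ : {x : I → ℤ // x ∈ RootsJ cs h J}) := by
    intro x y hxy
    have h1 : rep cs h u x.1 = rep cs h u y.1 := congrArg Subtype.val hxy
    have h2 := congrArg (rep cs h u⁻¹) h1
    rw [rep_inv_apply, rep_inv_apply] at h2
    exact Subtype.ext h2
  intro x hx
  obtain ⟨⟨y, hy⟩, hxy⟩ := Finite.surjective_of_injective hinj ⟨x, hx⟩
  have h1 : rep cs h u y = x := congrArg Subtype.val hxy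
  rw [← h1, rep_inv_apply]
  exact hy

theorem form_eq_zero_iff' [Fintype W] (i : I) (x : I → ℤ) : form cs h x (sr i) = 0 ↔ pairing A i x = 0 := by
  have h1 := two_form cs h i x
  have h2 := form_pos cs h (sr_ne_zero i)
  constructor
  · intro h3
    rw [h3, mul_zero] at h1
    exact (mul_eq_zero.1 h1.symm).resolve_right h2.ne'
  · intro h3
    rw [h3, zero_mul] at h1
    omega

/-- orthogonality to the roots over `J` is preserved -/
theorem orth_act [Fintype W] {J : Set I} {u : W} (hu : ∀ x ∈ RootsJ cs h J, rep cs h u⁻¹ x ∈ RootsJ cs h J) {y : I → ℤ}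
    (hy : ∀ k ∈ J, pairing A k y = 0) : ∀ k ∈ J, pairing A k (rep cs h u y) = 0 := by
  intro k hk
  rw [← form_eq_zero_iff' (cs := cs) (h := h), form_rep_left, form_eq_sum]
  refine Finset.sum_eq_zero fun m _ => ?_
  by_cases hm : m ∈ J
  · rw [(form_eq_zero_iff' (cs := cs) (h := h) m y).2 (hy m hm), mul_zero]
  · rw [(hu (sr k) (PosJ_subset J (sr_mem_PosJ hk))).2 m hm, zero_mul]

end Gen

/-! ### `E₈` -/

/-- the Coxeter system -/
local notation "cs8" => CoxeterMatrix.toCoxeterSystem CoxeterMatrix.E₈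

/-- the vectors of `R` (`s = 1`) and `-R` (`s = -1`) -/
def VR (s : ℤ) (x : Fin 8 → ℤ) : Prop := x 4 = 3 * s ∧ x 5 = 2 * s ∧ x 6 = s ∧ x 7 = 0

instance (s : ℤ) (x : Fin 8 → ℤ) : Decidable (VR s x) := inferInstanceAs (Decidable (_ ∧ _))

/-- the five roots of `R` -/
def ρ : Fin 5 → Fin 8 → ℤ := ![![2, 2, 3, 4, 3, 2, 1, 0], ![1, 2, 3, 4, 3, 2, 1, 0], ![1, 2, 2, 4, 3, 2, 1, 0],
  ![1, 2, 2, 3, 3, 2, 1, 0], ![1, 1, 2, 3, 3, 2, 1, 0]]

/-- their indices -/
def ρi : Fin 5 → Fin 240 := ![226, 219, 214, 210, 200]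

theorem ρ_eq : ∀ j, vec chevE8 8 (ρi j) = ρ j := by decide +kernel

theorem ρ_tab : ∀ r < 240, VR 1 (vec chevE8 8 r) → ∃ j, vec chevE8 8 r = ρ j := by decide +kernel

theorem ρ_VR : ∀ j, VR 1 (ρ j) := by decide +kernel

theorem orth_tab : ∀ r < 240, vec chevE8 8 r 7 = 0 →
    (∀ k : Fin 8, (k : ℕ) < 4 → pairing (cartanOf chevE8 8) k (vec chevE8 8 r) = 0) →
    ∀ k : Fin 8, (k : ℕ) < 5 → vec chevE8 8 r k = 0 := by decide +kernel

set_option synthInstance.maxHeartbeats 400000 in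
set_option synthInstance.maxSize 4096 in
theorem fib_tab : ∀ r < 240, vec chevE8 8 r 7 = 0 → pairing (cartanOf chevE8 8) 5 (vec chevE8 8 r) = 0 →
    pairing (cartanOf chevE8 8) 6 (vec chevE8 8 r) = 0 →
    (vec chevE8 8 r 4 = 0 ∧ vec chevE8 8 r 5 = 0 ∧ vec chevE8 8 r 6 = 0) ∨ VR 1 (vec chevE8 8 r) ∨
      VR (-1) (vec chevE8 8 r) := by decide +kernel

theorem ρ_orth : ∀ j, ∀ k : Fin 8, (k = 5 ∨ k = 6) → pairing (cartanOf chevE8 8) k (ρ j) = 0 := by decide +kernel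

theorem sr_orth : ∀ i : Fin 8, (i = 5 ∨ i = 6) → ∀ k : Fin 8, (k : ℕ) < 4 →
    pairing (cartanOf chevE8 8) k (sr i) = 0 := by decide +kernel

/-- the highest root -/
def θ : Fin 8 → ℤ := ![2, 3, 4, 6, 5, 4, 3, 2]

theorem θ_orth : ∀ k : Fin 8, k ≠ 7 → pairing (cartanOf chevE8 8) k θ = 0 := by decide +kernel

/-- the dominant vector -/
def lam : Fin 8 → ℤ := ∑ j, ρ j + (5 : ℤ) • θ

theorem lam_dom : ∀ k : Fin 8, 0 ≤ pairing (cartanOf chevE8 8) k lam := by decide +kernel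

theorem lam_four : pairing (cartanOf chevE8 8) 4 lam ≠ 0 := by decide +kernel

theorem ρ_diff : ∀ k : Fin 8, (k : ℕ) < 4 → ∃ i j : Fin 5, (sr k : Fin 8 → ℤ) = ρ i - ρ j := by decide +kernel

theorem ρ_inj : Function.Injective ρ := by decide +kernel

theorem isRoot_ρ (j : Fin 5) : IsRoot cs8 hpE8.isCartan (ρ j) :=
  (isRoot_iff hpE8 cs8 _).2 ⟨ρi j, (ρi j).2, ρ_eq j⟩

theorem root_tab {P : (Fin 8 → ℤ) → Prop} (hP : ∀ r < 240, P (vec chevE8 8 r)) {x : Fin 8 → ℤ}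
    (hx : IsRoot cs8 hpE8.isCartan x) : P x := by
  obtain ⟨r, hr, rfl⟩ := (isRoot_iff hpE8 cs8 x).1 hx
  exact hP r hr

/-- the coordinates of `R` -/
theorem exists_ρ {i : chevE8.Idx} (hi : InR 1 i) : ∃ j, dg i = ρ j := by
  rcases i with i | r
  · exact absurd hi.1 (by show ¬ (0 : ℤ) = 3 * 1; decide)
  · exact ρ_tab r r.2 hi

theorem exists_idx (j : Fin 5) : ∃ i : chevE8.Idx, dg i = ρ j ∧ InR 1 i := by
  refine ⟨Sum.inr ⟨ρi j, (ρi j).2⟩, ρ_eq j, ?_⟩
  have h1 := ρ_VR j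
  rw [← ρ_eq j] at h1
  exact h1

/-- **K4** in terms of `u = w⁻¹` -/
theorem k4' [Finite CoxeterMatrix.E₈.Group] {u : CoxeterMatrix.E₈.Group} (hu7 : u ∈ WJ cs8 {i : Fin 8 | i ≠ 7})
    (hc : ∀ k : Fin 8, k ∈ ({4, 5, 6} : Set (Fin 8)) → ∀ i j : Fin 5,
      rep cs8 hpE8.isCartan u (ρ i) k = rep cs8 hpE8.isCartan u (ρ j) k) :
    u ∈ WJ cs8 {i : Fin 8 | i ≠ 4} ∨ ∀ j, VR (-1) (rep cs8 hpE8.isCartan u (ρ j)) := by
  have := Fintype.ofFinite CoxeterMatrix.E₈.Group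
  have h7 : ∀ x, IsRoot cs8 hpE8.isCartan x → x 7 = 0 → rep cs8 hpE8.isCartan u x 7 = 0 := by
    intro x hx hx7
    have h1 : x ∈ RootsJ cs8 hpE8.isCartan {i : Fin 8 | i ≠ 7} := ⟨hx, fun k hk => by
      have : k = 7 := by by_contra h2; exact hk h2
      rw [this, hx7]⟩
    exact (RootsJ.act hu7 h1).2 7 (fun h2 => h2 rfl)
  -- `u` stabilizes the roots over `{0, 1, 2, 3}`
  have hA : ∀ x ∈ RootsJ cs8 hpE8.isCartan {i : Fin 8 | (i : ℕ) < 4},
      rep cs8 hpE8.isCartan u x ∈ RootsJ cs8 hpE8.isCartan {i : Fin 8 | (i : ℕ) < 4} := by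
    refine stab_sub fun k hk => ?_
    obtain ⟨i, j, e⟩ := ρ_diff k hk
    refine ⟨(isRoot_sr cs8 hpE8.isCartan k).act u, fun m hm => ?_⟩
    rw [e, map_sub, Pi.sub_apply]
    have hm' : 4 ≤ (m : ℕ) := not_lt.1 hm
    by_cases hm7 : m = 7
    · rw [hm7, h7 _ (isRoot_ρ i) (ρ_VR i).2.2.2, h7 _ (isRoot_ρ j) (ρ_VR j).2.2.2, sub_zero]
    · have hm4 : m ∈ ({4, 5, 6} : Set (Fin 8)) := by
        have h1 : (m : ℕ) = 4 ∨ (m : ℕ) = 5 ∨ (m : ℕ) = 6 := by
          have h2 := m.2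
          have h3 : (m : ℕ) ≠ 7 := fun h4 => hm7 (Fin.ext h4)
          omega
        rcases h1 with h1 | h1 | h1
        · exact Or.inl (Fin.ext h1)
        · exact Or.inr (Or.inl (Fin.ext h1))
        · exact Or.inr (Or.inr (Fin.ext h1))
      rw [hc m hm4 i j, sub_self]
  have hA' := stab_inv hA
  -- and the roots over `{5, 6}`
  have hB : ∀ x ∈ RootsJ cs8 hpE8.isCartan {i : Fin 8 | i = 5 ∨ i = 6},
      rep cs8 hpE8.isCartan u x ∈ RootsJ cs8 hpE8.isCartan {i : Fin 8 | i = 5 ∨ i = 6} := by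
    refine stab_sub fun k hk => ?_
    have hr := (isRoot_sr cs8 hpE8.isCartan k).act u
    have h1 : rep cs8 hpE8.isCartan u (sr k) 7 = 0 := h7 _ (isRoot_sr cs8 hpE8.isCartan k) (by
      rcases hk with rfl | rfl <;> exact sr_ne (by decide))
    have h2 := orth_act (cs := cs8) (h := hpE8.isCartan) (J := {i : Fin 8 | (i : ℕ) < 4}) hA' (y := sr k)
      (fun m hm => sr_orth k hk m hm)
    have h3 := root_tab (P := fun x => x 7 = 0 → (∀ k : Fin 8, (k : ℕ) < 4 → pairing (cartanOf chevE8 8) k x = 0) →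
      ∀ k : Fin 8, (k : ℕ) < 5 → x k = 0) orth_tab hr h1 h2
    refine ⟨hr, fun m hm => ?_⟩
    by_cases hm7 : m = 7
    · rw [hm7, h1]
    · refine h3 m ?_
      have h4 : (m : ℕ) ≠ 7 := fun h5 => hm7 (Fin.ext h5)
      have h5 : (m : ℕ) ≠ 5 := fun h6 => hm (Or.inl (Fin.ext h6))
      have h6 : (m : ℕ) ≠ 6 := fun h7 => hm (Or.inr (Fin.ext h7))
      have := m.2
      omega
  have hB' := stab_inv hB
  -- the roots `u r`
  have hR : ∀ j, VR 1 (rep cs8 hpE8.isCartan u (ρ j)) ∨ VR (-1) (rep cs8 hpE8.isCartan u (ρ j)) := by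
    intro j
    have hr := (isRoot_ρ j).act u
    have h1 := h7 _ (isRoot_ρ j) (ρ_VR j).2.2.2
    have h2 := orth_act (cs := cs8) (h := hpE8.isCartan) (J := {i : Fin 8 | i = 5 ∨ i = 6}) hB' (y := ρ j)
      (fun m hm => ρ_orth j m hm)
    rcases root_tab (P := fun x => x 7 = 0 → pairing (cartanOf chevE8 8) 5 x = 0 →
      pairing (cartanOf chevE8 8) 6 x = 0 → (x 4 = 0 ∧ x 5 = 0 ∧ x 6 = 0) ∨ VR 1 x ∨ VR (-1) x) fib_tab hr h1
      (h2 5 (Or.inl rfl)) (h2 6 (Or.inr rfl)) with h3 | h3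
    · exfalso
      have h4 : rep cs8 hpE8.isCartan u (ρ j) ∈ RootsJ cs8 hpE8.isCartan {i : Fin 8 | (i : ℕ) < 4} := by
        refine ⟨hr, fun m hm => ?_⟩
        have hm' : 4 ≤ (m : ℕ) := not_lt.1 hm
        have h5 : (m : ℕ) = 4 ∨ (m : ℕ) = 5 ∨ (m : ℕ) = 6 ∨ (m : ℕ) = 7 := by
          have := m.2
          omega
        rcases h5 with h5 | h5 | h5 | h5
        · rw [show m = 4 from Fin.ext h5]; exact h3.1
        · rw [show m = 5 from Fin.ext h5]; exact h3.2.1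
        · rw [show m = 6 from Fin.ext h5]; exact h3.2.2
        · rw [show m = 7 from Fin.ext h5]; exact h1
      have h5 := (hA' _ h4).2 4 (fun h6 => absurd h6 (by decide))
      rw [rep_inv_apply, (ρ_VR j).1] at h5
      exact absurd h5 (by decide)
    · exact h3
  rcases hR 0 with h0 | h0
  · left
    -- all in `R`
    have hR1 : ∀ j, VR 1 (rep cs8 hpE8.isCartan u (ρ j)) := fun j => by
      rcases hR j with h1 | h1
      · exact h1
      · have h2 := hc 4 (Or.inl rfl) 0 j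
        rw [h0.1, h1.1] at h2
        exact absurd h2 (by decide)
    have hex : ∀ j, ∃ j', rep cs8 hpE8.isCartan u (ρ j) = ρ j' := fun j =>
      root_tab (P := fun x => VR 1 x → ∃ j, x = ρ j) ρ_tab ((isRoot_ρ j).act u) (hR1 j)
    choose f hf using hex
    have hfi : Function.Injective f := by
      intro i j hij
      apply ρ_inj
      have h1 : rep cs8 hpE8.isCartan u (ρ i) = rep cs8 hpE8.isCartan u (ρ j) := by rw [hf, hf, hij]
      have h2 := congrArg (rep cs8 hpE8.isCartan u⁻¹) h1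
      rwa [rep_inv_apply, rep_inv_apply] at h2
    have hfb : Function.Bijective f := Finite.injective_iff_bijective.1 hfi
    have hsum : rep cs8 hpE8.isCartan u (∑ j, ρ j) = ∑ j, ρ j := by
      rw [map_sum, Finset.sum_congr rfl fun j _ => hf j]
      exact Function.Bijective.sum_comp hfb ρ
    have hθ : rep cs8 hpE8.isCartan u θ = θ := by
      refine rep_of_mem_WJ_orth (WJ_mono cs8 (fun k hk => ?_) hu7)
      rw [mem_orth]
      exact θ_orth k hk
    have hlam : rep cs8 hpE8.isCartan u lam = lam := by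
      rw [lam, map_add, hsum, map_smul, hθ]
    refine WJ_mono cs8 (fun k hk => ?_) (mem_WJ_of_rep (cs := cs8) (h := hpE8.isCartan) lam_dom hlam)
    rw [mem_orth] at hk
    rintro rfl
    exact lam_four hk
  · right
    intro j
    rcases hR j with h1 | h1
    · have h2 := hc 4 (Or.inl rfl) 0 j
      rw [h0.1, h1.1] at h2
      exact absurd h2 (by decide)
    · exact h1

/-- **K4** -/
theorem k4 : K4 := by
  intro w hw hc
  have : Finite CoxeterMatrix.E₈.Group := finite_W hpE8 cs8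
  rcases k4' (u := w⁻¹) (inv_mem hw) (fun k hk i j => by
    obtain ⟨a, ha, ha'⟩ := exists_idx i
    obtain ⟨b, hb, hb'⟩ := exists_idx j
    rw [← ha, ← hb]
    exact hc k hk a b ha' hb') with h1 | h1
  · left
    have := inv_mem h1
    rwa [inv_inv] at this
  · right
    intro i j hi hj
    obtain ⟨m, hm⟩ := exists_ρ hi
    have h2 := h1 m
    rw [← hm, ← hj] at h2
    exact h2

end Cfsg.Agent.H116.L8
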