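import Cfsg.Agent.H596.L8.Defs
import Cfsg.Agent.H116.L8.Count

/-!
# The transitivity for the counting lemma (helper116, for S4879 row `E₈`, box of helper596)

* `Split cs h J J₁ J₂` : the roots over `J` are roots over `J₁` or over `J₂`;
* `commute_sup` : the root groups over `J₁` commute with the root groups over `J₂`;
* `exists_left` : `P_J = ⟨X_r : r over J₂⟩ P_{J₁}`;
* `split_E8`, `SA_le_Sup`, `SA_le`, `tr_E8` : the case `J = {i ≠ 4}`, `J₁ = {0, 1, 2, 3}`, `J₂ = {5, 6, 7}` of `E₈`.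
-/

set_option autoImplicit false
set_option linter.unusedSectionVars false
set_option maxHeartbeats 400000

namespace Cfsg.Agent.H116.L8

open Cfsg CoxeterSystem Cfsg.Agent.ChevalleyStructure.CoxeterGeom Cfsg.Agent.Tits.Roots Cfsg.Agent.Tits.Core
  Cfsg.Agent.Tits.RootComb Cfsg.Agent.Nodes.Reps Cfsg.Agent.Nodes.BNOf
  Cfsg.Agent.Nodes.StabComb Cfsg.Agent.Nodes.Bruhat Cfsg.Agent.Nodes.LeviDec Cfsg.Agent.H35.Poin
  Cfsg.Agent.H35.PoinNum Cfsg.Agent.H35.ExcIdx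
  Cfsg.Agent.ChevalleyStructure.CoxeterGeomTypes Cfsg.Lie
open Cfsg.Agent.Nodes.RGDChev Cfsg.Agent.ChevalleyStructure.NPerm
open Cfsg.Agent.H596.L8
open scoped commutatorElement

section Gen

variable {I W Y : Type*} [Fintype I] [DecidableEq I] [Group W] [Group Y] {M : CoxeterMatrix I}
  {cs : CoxeterSystem M W} {A : I → I → ℤ} {h : IsCartan M A} {p : ℕ} {T : Subgroup Y} {n : I → Y}
  {X : (I → ℤ) → Subgroup Y}

theorem PJ_le_PJ {J J' : Set I} (hJ : J ⊆ J') : PJ cs h T X J ≤ PJ cs h T X J' :=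
  sup_le (le_trans (LJ_mono hJ) LJ_le_PJ) (le_trans (VJ_le_B J) B_le_PJ)

/-- the roots over `J` are roots over `J₁` or over `J₂` -/
structure Split (cs : CoxeterSystem M W) (h : IsCartan M A) (J J₁ J₂ : Set I) : Prop where
  le₁ : J₁ ⊆ J
  le₂ : J₂ ⊆ J
  disj : ∀ k ∈ J₁, k ∉ J₂
  roots : ∀ x ∈ RootsJ cs h J, x ∈ RootsJ cs h J₁ ∨ x ∈ RootsJ cs h J₂

variable {J J₁ J₂ : Set I} (S : Split cs h J J₁ J₂)

include S

theorem Split.not_mem {x : I → ℤ} (hx : x ∈ RootsJ cs h J₁) : x ∉ RootsJ cs h J₂ := fun hx' => by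
  refine IsRoot.ne_zero hx.1 (funext fun k => ?_)
  by_cases hk : k ∈ J₁
  · exact hx'.2 k (S.disj k hk)
  · exact hx.2 k hk

theorem Split.not_btwn {x y z : I → ℤ} (hx : x ∈ RootsJ cs h J₁) (hy : y ∈ RootsJ cs h J₂) : ¬ Btwn cs h x y z := by
  rintro ⟨hz, m, a, b, hm, ha, hb, e⟩
  have he : ∀ k, m * z k = a * x k + b * y k := fun k => by
    have := congrFun e k
    simpa [Pi.smul_apply, smul_eq_mul] using this
  have hxJ : ∀ k, k ∉ J → x k = 0 := fun k hk => hx.2 k fun h1 => hk (S.le₁ h1)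
  have hyJ : ∀ k, k ∉ J → y k = 0 := fun k hk => hy.2 k fun h1 => hk (S.le₂ h1)
  have hzJ : z ∈ RootsJ cs h J := ⟨hz, fun k hk => by
    have h1 := he k
    rw [hxJ k hk, hyJ k hk, mul_zero, mul_zero, add_zero] at h1
    exact (mul_eq_zero.1 h1).resolve_left hm.ne'⟩
  rcases S.roots z hzJ with h1 | h1
  · refine IsRoot.ne_zero hy.1 (funext fun k => ?_)
    by_cases hk : k ∈ J₂
    · have hk1 : k ∉ J₁ := fun h2 => S.disj k h2 hk
      have h2 := he k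
      rw [h1.2 k hk1, hx.2 k hk1, mul_zero, mul_zero, zero_add] at h2
      exact (mul_eq_zero.1 h2.symm).resolve_left hb.ne'
    · exact hy.2 k hk
  · refine IsRoot.ne_zero hx.1 (funext fun k => ?_)
    by_cases hk : k ∈ J₁
    · have hk1 : k ∉ J₂ := S.disj k hk
      have h2 := he k
      rw [h1.2 k hk1, hy.2 k hk1, mul_zero, mul_zero, add_zero] at h2
      exact (mul_eq_zero.1 h2.symm).resolve_left ha.ne'
    · exact hx.2 k hk

variable (R : RGD cs h p T n X)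

include R

theorem Split.commute {x y : I → ℤ} (hx : x ∈ RootsJ cs h J₁) (hy : y ∈ RootsJ cs h J₂) {a b : Y} (ha : a ∈ X x)
    (hb : b ∈ X y) : Commute a b := by
  have h1 := R.comm x y hx.1 hy.1 (fun e => S.not_mem hx (e ▸ hy))
    (fun e => S.not_mem (RootsJ.neg hx) (by rw [e, neg_neg]; exact hy)) a ha b hb
  have h2 : btw cs h X x y ≤ RGD.Sup X ∅ := RGD.btw_le_Sup R fun z hz => absurd hz (S.not_btwn hx hy)
  have h3 : RGD.Sup X (∅ : Set (I → ℤ)) = ⊥ := by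
    rw [eq_bot_iff]
    exact RGD.Sup_le fun z hz => absurd hz (Set.notMem_empty z)
  have h4 := h2 h1
  rw [h3, Subgroup.mem_bot] at h4
  exact commutatorElement_eq_one_iff_commute.1 h4

theorem Split.commute_sup {a b : Y} (ha : a ∈ RGD.Sup X (RootsJ cs h J₁)) (hb : b ∈ RGD.Sup X (RootsJ cs h J₂)) :
    Commute a b := by
  have h1 : ∀ x ∈ RootsJ cs h J₁, ∀ a ∈ X x, ∀ b ∈ RGD.Sup X (RootsJ cs h J₂), Commute a b := by
    intro x hx a ha b hb
    have h2 : RGD.Sup X (RootsJ cs h J₂) ≤ Subgroup.centralizer {a} := RGD.Sup_le fun y hy b hb =>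
      Subgroup.mem_centralizer_singleton_iff.2 (S.commute R hx hy ha hb).eq.symm
    exact (Subgroup.mem_centralizer_singleton_iff.1 (h2 hb)).symm
  have h2 : RGD.Sup X (RootsJ cs h J₁) ≤ Subgroup.centralizer {b} := RGD.Sup_le fun x hx a ha =>
    Subgroup.mem_centralizer_singleton_iff.2 (h1 x hx a ha b hb).eq
  exact Subgroup.mem_centralizer_singleton_iff.1 (h2 ha)

/-- `P_J = ⟨X_r : r over J₂⟩ P_{J₁}` -/
theorem Split.exists_left {g : Y} (hg : g ∈ PJ cs h T X J) :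
    ∃ y ∈ RGD.Sup X (RootsJ cs h J₂), y⁻¹ * g ∈ PJ cs h T X J₁ := by
  obtain ⟨l, hl, v, hv, rfl⟩ := (mem_PJ R).1 hg
  have h1 : LJ cs h T X J ≤ RGD.Sup X (RootsJ cs h J₂) ⊔ LJ cs h T X J₁ := by
    refine sup_le (le_trans T_le_LJ le_sup_right) (RGD.Sup_le fun x hx => ?_)
    rcases S.roots x hx with h2 | h2
    · exact le_trans (X_le_LJ h2) le_sup_right
    · exact le_trans (RGD.le_Sup h2) le_sup_left
  have h2 : LJ cs h T X J₁ ≤ Subgroup.normalizer (RGD.Sup X (RootsJ cs h J₂) : Set Y) := by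
    refine sup_le (R.T_le_normalizer fun _ hx => hx.1) (RGD.Sup_le fun x hx => ?_)
    refine R.le_normalizer hx.1 fun y hy => ⟨hy.1, Or.inr ⟨fun e => ?_, fun z hz => absurd hz (S.not_btwn hx hy)⟩⟩
    exact S.not_mem (RootsJ.neg hx) (by rw [e, neg_neg]; exact hy)
  have h3 : l ∈ ((RGD.Sup X (RootsJ cs h J₂) ⊔ LJ cs h T X J₁ : Subgroup Y) : Set Y) := h1 hl
  rw [Subgroup.coe_mul_of_right_le_normalizer_left _ _ h2, Set.mem_mul] at h3
  obtain ⟨y, hy, l', hl', rfl⟩ := h3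
  refine ⟨y, hy, ?_⟩
  rw [show y⁻¹ * (y * l' * v) = l' * v by group]
  exact mul_mem (LJ_le_PJ hl') (B_le_PJ (VJ_le_B J hv))

end Gen

/-! ### `E₈` -/

universe u

theorem e8_tab : ∀ r < 240, vec chevE8 8 r 4 = 0 →
    (∀ k : Fin 8, 3 < (k : ℕ) → vec chevE8 8 r k = 0) ∨ (∀ k : Fin 8, (k : ℕ) < 5 → vec chevE8 8 r k = 0) := by
  decide +kernel

theorem split_E8 : Split CoxeterMatrix.E₈.toCoxeterSystem hpE8.isCartan {i : Fin 8 | i ≠ 4} {i : Fin 8 | (i : ℕ) < 4}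
    {i : Fin 8 | 4 < (i : ℕ)} where
  le₁ := fun i hi e => by
    rw [e] at hi
    exact absurd hi (by decide)
  le₂ := fun i hi e => by
    rw [e] at hi
    exact absurd hi (by decide)
  disj := fun i hi hi' => by
    have h1 : (i : ℕ) < 4 := hi
    have h2 : 4 < (i : ℕ) := hi'
    omega
  roots := fun x hx => by
    obtain ⟨r, hr, rfl⟩ := (isRoot_iff hpE8 CoxeterMatrix.E₈.toCoxeterSystem x).1 hx.1
    have h4 : vec chevE8 8 r 4 = 0 := hx.2 4 (fun h1 => h1 rfl)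
    rcases e8_tab r hr h4 with h1 | h1
    · exact Or.inl ⟨hx.1, fun k hk => h1 k (by
        have : ¬ (k : ℕ) < 4 := hk
        omega)⟩
    · exact Or.inr ⟨hx.1, fun k hk => h1 k (by
        have : ¬ 4 < (k : ℕ) := hk
        omega)⟩

theorem SA_le_Sup (K : Type u) [Field K] : SA K ≤
    RGD.Sup (XX chevE8 8 K) (RootsJ CoxeterMatrix.E₈.toCoxeterSystem hpE8.isCartan {i : Fin 8 | (i : ℕ) < 4}) := by
  refine iSup_le fun j => ?_
  have h1 : (sr j.1 : Fin 8 → ℤ) ∈ RootsJ CoxeterMatrix.E₈.toCoxeterSystem hpE8.isCartan {i : Fin 8 | (i : ℕ) < 4} :=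
    PosJ_subset _ (sr_mem_PosJ j.2)
  exact sup_le (RGD.le_Sup h1) (RGD.le_Sup (RootsJ.neg h1))

theorem SA_le (K : Type u) [Field K] {J : Set (Fin 8)} (hJ : ∀ j : Fin 8, (j : ℕ) < 4 → j ∈ J) : SA K ≤ P8 K J :=
  le_trans (SA_le_Sup K) (le_trans (le_trans le_sup_right LJ_le_PJ) (PJ_le_PJ hJ))

/-- the transitivity hypothesis of `modEq` -/
theorem tr_E8 (K : Type u) [Field K] [Finite K] {g : chevE8.group K} (hg : g ∈ P8 K {i : Fin 8 | i ≠ 4}) :
    ∃ y ∈ P8 K {i : Fin 8 | i ≠ 4}, (∀ x ∈ SA K, Commute y x) ∧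
      y⁻¹ * g ∈ P8 K {i : Fin 8 | i ≠ 7} ⊓ P8 K {i : Fin 8 | i ≠ 4} := by
  obtain ⟨p, hp⟩ := CharP.exists K
  have : Fact p.Prime := ⟨CharP.char_is_prime K p⟩
  have R := rgd (K := K) hpE8 CoxeterMatrix.E₈.toCoxeterSystem p
  obtain ⟨y, hy, hyg⟩ := split_E8.exists_left R hg
  refine ⟨y, ?_, fun x hx => (split_E8.commute_sup R (SA_le_Sup K hx) hy).symm, ?_⟩
  · refine (le_trans (le_trans le_sup_right LJ_le_PJ) (PJ_le_PJ split_E8.le₂) :
      RGD.Sup (XX chevE8 8 K) (RootsJ CoxeterMatrix.E₈.toCoxeterSystem hpE8.isCartan {i : Fin 8 | 4 < (i : ℕ)}) ≤ _) hy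
  · rw [Subgroup.mem_inf]
    refine ⟨PJ_le_PJ ?_ hyg, PJ_le_PJ split_E8.le₁ hyg⟩
    intro i hi e
    rw [e] at hi
    exact absurd hi (by decide)

end Cfsg.Agent.H116.L8
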